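import Cfsg.Agent.H681.IP.Row

/-!
# S4933, `p = 2`: a quaternion (or dihedral) subgroup commuting with its conjugate under a `2`-element (helper681)
-/

set_option autoImplicit false

namespace Cfsg.Agent.H681.HT

open Cfsg Subgroup Cfsg.Agent.H316.HT Cfsg.Agent.H681.IP
open scoped commutatorElement

universe u

theorem isPGroup_zpowers {S : Type u} [Group S] {x : S} {n : ℕ} (h : x ^ 2 ^ n = 1) : IsPGroup 2 ↥(zpowers x) := by
  rintro ⟨_, m, rfl⟩
  refine ⟨n, Subtype.ext ?_⟩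
  change (x ^ m) ^ 2 ^ n = 1
  rw [← zpow_natCast, zpow_comm, zpow_natCast, h, one_zpow]

/-- `⟨i, j⟩`, `⟨i, j⟩^w` commute: they generate a `2`-group together with `w` -/
theorem exists_two_subgroup {S : Type u} [Group S] {i j w : S} {k : ℕ} (hi : i ^ 4 = 1) (hj : j ^ 4 = 1)
    (hij : j * i * j⁻¹ = i⁻¹) (hw : w ^ 2 ^ k = 1) (w1 : Commute (w ^ 2) i) (w2 : Commute (w ^ 2) j)
    (c1 : Commute i (w * i * w⁻¹)) (c2 : Commute i (w * j * w⁻¹)) (c3 : Commute j (w * i * w⁻¹))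
    (c4 : Commute j (w * j * w⁻¹)) : ∃ X : Subgroup S, IsPGroup 2 ↥X ∧ i ∈ X ∧ j ∈ X ∧ w ∈ X := by
  have hQ : IsPGroup 2 ↥(zpowers j ⊔ zpowers i) := by
    refine (isPGroup_zpowers (n := 2) hj).to_sup_of_normal_right' (isPGroup_zpowers (n := 2) hi) ?_
    rw [zpowers_le, mem_normalizer_iff_map_conj_eq, MonoidHom.map_zpowers]
    change zpowers (j * i * j⁻¹) = zpowers i
    rw [hij, zpowers_inv]
  set Q : Subgroup S := zpowers j ⊔ zpowers i with hQdef
  have hiQ : i ∈ Q := mem_sup_right (mem_zpowers i)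
  have hjQ : j ∈ Q := mem_sup_left (mem_zpowers j)
  set Q' : Subgroup S := Q.map (MulAut.conj w).toMonoidHom with hQ'
  have hQ'p : IsPGroup 2 ↥Q' := hQ.map _
  have hle : Q ≤ centralizer (Q' : Set S) := by
    have hQ'2 : Q' ≤ centralizer ({i, j} : Set S) := by
      rw [hQ', hQdef, Subgroup.map_sup, MonoidHom.map_zpowers, MonoidHom.map_zpowers, sup_le_iff, zpowers_le,
        zpowers_le]
      constructor
      · rw [mem_centralizer_iff]
        rintro y (rfl | rfl)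
        · exact c2.eq
        · exact c4.eq
      · rw [mem_centralizer_iff]
        rintro y (rfl | rfl)
        · exact c1.eq
        · exact c3.eq
    rw [hQdef, sup_le_iff, zpowers_le, zpowers_le]
    constructor
    · rw [mem_centralizer_iff]
      intro y hy
      exact (mem_centralizer_iff.1 (hQ'2 hy) j (by simp)).symm
    · rw [mem_centralizer_iff]
      intro y hy
      exact (mem_centralizer_iff.1 (hQ'2 hy) i (by simp)).symm
  have hR : IsPGroup 2 ↥(Q ⊔ Q') :=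
    hQ.to_sup_of_normal_right' hQ'p (hle.trans (centralizer_le_normalizer _))
  have hww : Q'.map (MulAut.conj w).toMonoidHom = Q := by
    rw [hQ', hQdef, Subgroup.map_sup, Subgroup.map_sup, MonoidHom.map_zpowers, MonoidHom.map_zpowers,
      MonoidHom.map_zpowers, MonoidHom.map_zpowers]
    change zpowers (w * (w * j * w⁻¹) * w⁻¹) ⊔ zpowers (w * (w * i * w⁻¹) * w⁻¹) = zpowers j ⊔ zpowers i
    have e : ∀ x : S, Commute (w ^ 2) x → w * (w * x * w⁻¹) * w⁻¹ = x := by
      intro x hx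
      have h1 : w * (w * x * w⁻¹) * w⁻¹ = w ^ 2 * x * (w ^ 2)⁻¹ := by
        simp only [pow_two, mul_inv_rev, mul_assoc]
      rw [h1, hx.eq, mul_inv_cancel_right]
    rw [e _ w1, e _ w2]
  refine ⟨zpowers w ⊔ (Q ⊔ Q'), ?_, mem_sup_right (mem_sup_left hiQ), mem_sup_right (mem_sup_left hjQ),
    mem_sup_left (mem_zpowers w)⟩
  refine (isPGroup_zpowers hw).to_sup_of_normal_right' hR ?_
  rw [zpowers_le, mem_normalizer_iff_map_conj_eq, Subgroup.map_sup]
  change Q' ⊔ Q'.map (MulAut.conj w).toMonoidHom = _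
  rw [hww, sup_comm]

/-- **Row for a swapped quaternion pair.** -/
theorem row_of_swap (hIP : IPTwo) {S : Type u} [Group S] {i j w : S} {k : ℕ} (hi : i ^ 4 = 1) (hj : j ^ 4 = 1)
    (hij : j * i * j⁻¹ = i⁻¹) (hne : i * j ≠ j * i) (hw : w ^ 2 ^ k = 1) (w1 : Commute (w ^ 2) i)
    (w2 : Commute (w ^ 2) j) (c1 : Commute i (w * i * w⁻¹)) (c2 : Commute i (w * j * w⁻¹))
    (c3 : Commute j (w * i * w⁻¹)) (c4 : Commute j (w * j * w⁻¹)) : Row 2 S := by
  obtain ⟨X, hX, mi, mj, mw⟩ := exists_two_subgroup hi hj hij hw w1 w2 c1 c2 c3 c4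
  exact row_two_swap hIP X hX mi mj mw hne c1 c2 c3 c4

end Cfsg.Agent.H681.HT
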