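import Cfsg.Agent.H681.HT.Pgl
import Cfsg.Agent.H495.HT.Rho
import Cfsg.Agent.H495.HT.B0

/-!
# The cuspidal character `ρ` of groups over `PGL₂(q)`, `q ≡ 2 (mod 3)` (helper681, helper495)
-/

set_option autoImplicit false

namespace Cfsg.Agent.H681.HT

open Cfsg Matrix MulAction Module
open scoped MatrixGroups LinearAlgebra.Projectivization

universe u v w

theorem fl_eq_ln {F : Type u} [Field F] (g : GL (Fin 2) F) : fl g = H495.HT.ln g := rfl

/-- the character of `GL₂(q)` (helper495) -/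
theorem exists_rho₀ (F : Type u) [Field F] [Finite F] (hq : Nat.card F % 3 = 2) :
    ∃ ρ₀ : IrrCharacter (GL (Fin 2) F), Rho0 ρ₀ := by
  obtain ⟨ρ, h1, h2, h3, h4, -⟩ := H495.HT.exists_rho F hq
  refine ⟨ρ, h1, h2, h3, fun g hg => ?_, fun g hg => ?_⟩
  · rw [h4 g (by rw [← fl_eq_ln, hg]; norm_num), ← fl_eq_ln, hg]
    norm_num
  · rw [h4 g (by rw [← fl_eq_ln, hg]; norm_num), ← fl_eq_ln, hg]
    norm_num

section

variable {F : Type u} [Field F] [Finite F] {X : Type v} [Group X] [Finite X] {f : X →* ProjGenLinGroup (Fin 2) F}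
  {Y : Type w} [MulAction X Y] (e : Y ≃ ℙ F (Fin 2 → F)) (he : ∀ (x : X) (y : Y), e (x • y) = f x • e y)

include he

/-- membership in the principal block -/
theorem mem_of_reg (hq : Nat.card F % 3 = 2) (hf : Function.Surjective f) (ρ : IrrCharacter X)
    (h : ∀ x : X, ¬ 3 ∣ orderOf x → (ρ : X → ℂ) x = (Nat.card (fixedBy Y x) : ℂ) - 2) {M : Ideal AlgInt}
    (hM : IsPModular 3 M) : ρ ∈ principalBlock M X := by
  have : Finite Y := Finite.of_equiv _ e.symm
  have hcY : Nat.card Y = Nat.card F + 1 := by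
    rw [Nat.card_congr e, Projectivization.card_of_finrank_two]
    simp
  have h2t := two_trans e he hf
  have hpre : IsPretransitive X Y := by
    have := h2t
    exact isPretransitive_of_is_two_pretransitive
  have : Nonempty Y := (Nat.card_pos_iff.1 (by omega : 0 < Nat.card Y)).1
  have : Fact (Nat.Prime 3) := ⟨Nat.prime_three⟩
  exact H495.HT.mem_principal (p := 3) (Ω := Y) (by norm_num) (by omega) hM ρ h

/-- **The character `ρ`.** -/
theorem exists_rho (hq : Nat.card F % 3 = 2) (hf : Function.Surjective f) :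
    ∃ ρ : IrrCharacter X, (ρ : X → ℂ) 1 = (Nat.card F : ℂ) - 1 ∧
      (∀ x x' : X, f x = f x' → (ρ : X → ℂ) x = (ρ : X → ℂ) x') ∧
      (∀ x : X, Nat.card (fixedBy Y x) = 1 → (ρ : X → ℂ) x = -1) ∧
      (∀ x : X, Nat.card (fixedBy Y x) = 2 → (ρ : X → ℂ) x = 0) ∧
      (∀ x : X, ¬ 3 ∣ orderOf x → (ρ : X → ℂ) x = (Nat.card (fixedBy Y x) : ℂ) - 2) ∧
      IsIrrCharacter X (fun x => (Nat.card (fixedBy Y x) : ℂ) - 1) ∧
      (∀ [Fintype X], classInner (ρ : X → ℂ) (fun x : X => ((((Nat.card (fixedBy Y x) : ℂ) - 1) ^ 2 : ℂ))) = 1) ∧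
      ∀ M : Ideal AlgInt, IsPModular 3 M → ρ ∈ principalBlock M X := by
  obtain ⟨ρ₀, h0⟩ := exists_rho₀ F hq
  obtain ⟨ρ, -, h1, h2, h3, h4, h5, h6, h7⟩ := exists_rho_of e he h0 hq hf
  exact ⟨ρ, h1, h2, h3, h4, h5, h6, h7, fun M hM => mem_of_reg e he hq hf ρ h5 hM⟩

end

end Cfsg.Agent.H681.HT
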