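import Cfsg.Agent.H681.HT.PglFin
import Cfsg.Agent.H367.HT.Rho

/-!
# The cuspidal character `ρ` of groups over `PGL₂(q)`: the values without fixed points (helper681; input: helper367)
-/

set_option autoImplicit false

namespace Cfsg.Agent.H681.HT

open Cfsg Matrix MulAction Module
open scoped MatrixGroups LinearAlgebra.Projectivization

universe u v w

variable {F : Type u} [Field F] [Finite F] {X : Type v} [Group X] [Finite X] {f : X →* ProjGenLinGroup (Fin 2) F}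
  {Y : Type w} [MulAction X Y] (e : Y ≃ ℙ F (Fin 2 → F)) (he : ∀ (x : X) (y : Y), e (x • y) = f x • e y)

include he

open Classical in
/-- **The character `ρ`, all values.** -/
theorem exists_rho_v {ρ₀ : IrrCharacter (GL (Fin 2) F)} (h : Rho0 ρ₀)
    (hv : ∀ g : GL (Fin 2) F, fl g = 0 → (ρ₀ : GL (Fin 2) F → ℂ) g =
      if g ^ ((Nat.card F + 1) / 3) ∈ Subgroup.center (GL (Fin 2) F) then -2 else 1)
    (hq : Nat.card F % 3 = 2) (hf : Function.Surjective f) :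
    ∃ ρ : IrrCharacter X, (ρ : X → ℂ) 1 = (Nat.card F : ℂ) - 1 ∧
      (∀ x x' : X, f x = f x' → (ρ : X → ℂ) x = (ρ : X → ℂ) x') ∧
      (∀ x : X, Nat.card (fixedBy Y x) = 1 → (ρ : X → ℂ) x = -1) ∧
      (∀ x : X, Nat.card (fixedBy Y x) = 2 → (ρ : X → ℂ) x = 0) ∧
      (∀ x : X, ¬ 3 ∣ orderOf x → (ρ : X → ℂ) x = (Nat.card (fixedBy Y x) : ℂ) - 2) ∧
      IsIrrCharacter X (fun x => (Nat.card (fixedBy Y x) : ℂ) - 1) ∧
      (∀ [Fintype X], classInner (ρ : X → ℂ) (fun x : X => ((((Nat.card (fixedBy Y x) : ℂ) - 1) ^ 2 : ℂ))) = 1) ∧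
      (∀ M : Ideal AlgInt, IsPModular 3 M → ρ ∈ principalBlock M X) ∧
      ∀ x : X, Nat.card (fixedBy Y x) = 0 → (ρ : X → ℂ) x = if f x ^ ((Nat.card F + 1) / 3) = 1 then -2 else 1 := by
  obtain ⟨ρ, h0, h1, h2, h3, h4, h5, h6, h7⟩ := exists_rho_of e he h hq hf
  refine ⟨ρ, h1, h2, h3, h4, h5, h6, h7, fun M hM => mem_of_reg e he hq hf ρ h5 hM, fun x hx => ?_⟩
  obtain ⟨g, hg⟩ := ProjGenLinGroup.mk_surjective (f x)
  rw [h0 x g hg.symm, hv g (by rw [← card_fixedBy e he hg.symm, hx])]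
  have h8 : f x ^ ((Nat.card F + 1) / 3) = 1 ↔ g ^ ((Nat.card F + 1) / 3) ∈ Subgroup.center (GL (Fin 2) F) := by
    rw [← hg, ← map_pow, ProjGenLinGroup.mk_eq_one]
  by_cases h9 : g ^ ((Nat.card F + 1) / 3) ∈ Subgroup.center (GL (Fin 2) F)
  · rw [if_pos h9, if_pos (h8.2 h9)]
  · rw [if_neg h9, if_neg fun h => h9 (h8.1 h)]

/-- **The character `ρ`, all values** (helper495, helper367). -/
theorem exists_rho_full (hq : Nat.card F % 3 = 2) (hf : Function.Surjective f) :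
    ∃ ρ : IrrCharacter X, (ρ : X → ℂ) 1 = (Nat.card F : ℂ) - 1 ∧
      (∀ x x' : X, f x = f x' → (ρ : X → ℂ) x = (ρ : X → ℂ) x') ∧
      (∀ x : X, Nat.card (fixedBy Y x) = 1 → (ρ : X → ℂ) x = -1) ∧
      (∀ x : X, Nat.card (fixedBy Y x) = 2 → (ρ : X → ℂ) x = 0) ∧
      (∀ x : X, ¬ 3 ∣ orderOf x → (ρ : X → ℂ) x = (Nat.card (fixedBy Y x) : ℂ) - 2) ∧
      IsIrrCharacter X (fun x => (Nat.card (fixedBy Y x) : ℂ) - 1) ∧
      (∀ [Fintype X], classInner (ρ : X → ℂ) (fun x : X => ((((Nat.card (fixedBy Y x) : ℂ) - 1) ^ 2 : ℂ))) = 1) ∧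
      (∀ M : Ideal AlgInt, IsPModular 3 M → ρ ∈ principalBlock M X) ∧
      (∀ x : X, Nat.card (fixedBy Y x) = 0 → f x ^ ((Nat.card F + 1) / 3) = 1 → (ρ : X → ℂ) x = -2) ∧
      ∀ x : X, Nat.card (fixedBy Y x) = 0 → f x ^ ((Nat.card F + 1) / 3) ≠ 1 → (ρ : X → ℂ) x = 1 := by
  classical
  obtain ⟨ρ₀, a1, a2, a3, a4, -, a6, a7⟩ := H367.HT.exists_rho' F hq
  have h0 : Rho0 ρ₀ := ⟨a1, a2, a3, fun g hg => by
    rw [a4 g (by rw [← fl_eq_ln, hg]; norm_num), ← fl_eq_ln, hg]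
    norm_num, fun g hg => by
    rw [a4 g (by rw [← fl_eq_ln, hg]; norm_num), ← fl_eq_ln, hg]
    norm_num⟩
  obtain ⟨ρ, h1, h2, h3, h4, h5, h6, h7, h8, h9⟩ := exists_rho_v e he h0 (fun g hg => by
    split_ifs with h
    · exact a6 g hg h
    · exact a7 g hg h) hq hf
  refine ⟨ρ, h1, h2, h3, h4, h5, h6, h7, h8, fun x hx h => ?_, fun x hx h => ?_⟩
  · rw [h9 x hx, if_pos h]
  · rw [h9 x hx, if_neg h]

omit [Finite F] [Finite X] he in
/-- two such characters agree; in particular `ρ ∘ τ = ρ` for automorphisms preserving the kernel and the fixed points -/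
theorem rho_comp {ρ : X → ℂ} [Finite Y] (hfix : ∀ x : X, Nat.card (fixedBy Y x) = 0 ∨ Nat.card (fixedBy Y x) = 1 ∨
      Nat.card (fixedBy Y x) = 2 ∨ f x = 1) (hker : ∀ x : X, f x = 1 → ρ x = ρ 1)
    (hone : ∀ x : X, Nat.card (fixedBy Y x) = 1 → ρ x = -1) (htwo : ∀ x : X, Nat.card (fixedBy Y x) = 2 → ρ x = 0)
    {k : ℕ} {c d : ℂ} [DecidableEq (ProjGenLinGroup (Fin 2) F)]
    (hzero : ∀ x : X, Nat.card (fixedBy Y x) = 0 → ρ x = if f x ^ k = 1 then c else d) (τ : X ≃* X)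
    (hτ : ∀ x, f x = 1 ↔ f (τ x) = 1) (hn : ∀ x, Nat.card (fixedBy Y (τ x)) = Nat.card (fixedBy Y x)) (x : X) :
    ρ (τ x) = ρ x := by
  rcases hfix x with h | h | h | h
  · rw [hzero x h, hzero (τ x) (by rw [hn, h])]
    have h1 : f (τ x) ^ k = 1 ↔ f x ^ k = 1 := by
      rw [← map_pow, ← map_pow, ← map_pow, ← hτ]
    by_cases h2 : f x ^ k = 1
    · rw [if_pos h2, if_pos (h1.2 h2)]
    · rw [if_neg h2, if_neg fun h => h2 (h1.1 h)]
  · rw [hone x h, hone (τ x) (by rw [hn, h])]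
  · rw [htwo x h, htwo (τ x) (by rw [hn, h])]
  · rw [hker x h, hker (τ x) ((hτ x).1 h)]

end Cfsg.Agent.H681.HT
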